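import Cfsg.Agent.H237.ExpP
import Cfsg.Agent.H382.FieldAction
import Cfsg.Agent.H828.Cand
import Cfsg.Agent.OrdDiv.Table
import Cfsg.Agent.H525.RO.BRow

/-!
# The Baby Monster, `p = 5`: `PSL₄(5)`, `PSL₃(25)`, `PSU₄(5)` are excluded (helper237)

The Sylow 5-subgroups of these groups have exponent 5, but `B` has an element of order 25 (helper525).
-/

set_option autoImplicit false

namespace Cfsg.Agent.H237.KillBExp

open Cfsg Subgroup Cfsg.Agent.OrdDiv Cfsg.Agent.H828.Cand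
open Cfsg.Agent.H238 (Emb)

universe u

variable {K : Type u} [Group K] [Finite K] {L : Subgroup K} {z : K}

/-- the index of `L` is prime to 5 -/
theorem index_b (hK : Spor.IsoB K) (h : Emb 5 L z) : ¬ 5 ∣ L.index := by
  have : Fact (Nat.Prime 5) := ⟨Nat.prime_five⟩
  obtain ⟨g, hg, -, hc⟩ := cand table v_b (NotCT.Orders.b hK) h
  rw [t_b] at hg
  simp only [List.mem_cons, List.not_mem_nil, or_false, Prod.mk.injEq] at hg
  have h1 := L.card_mul_index
  rw [NotCT.Orders.b hK, hc] at h1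
  rintro ⟨d, hd⟩
  rw [hd] at h1
  have h2 : ordN g * 5 ∣ 4154781481226426191177580544000000 := ⟨d, by rw [mul_assoc]; exact h1.symm⟩
  rcases hg with ⟨h0, -⟩ | ⟨-, rfl⟩ | ⟨-, rfl⟩ | ⟨-, rfl⟩ | ⟨-, rfl⟩
  · exact absurd h0 (by norm_num)
  all_goals revert h2; decide +kernel


omit [Finite K] in
theorem exists_y (hK : Spor.IsoB K) : ∃ y : K, orderOf y = 5 ^ 2 := by
  obtain ⟨e⟩ := hK
  obtain ⟨φ, hφ⟩ := H525.RO.BRow.exists_hom
  have := Cfsg.Agent.S1701.result.1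
  obtain ⟨b, g, -, ho⟩ := H525.RO.HnElt.exists_order
  refine ⟨e.symm (φ (b * (g⁻¹ * b * g))), ?_⟩
  rw [MulEquiv.orderOf_eq, orderOf_injective φ hφ, ho]
  norm_num

theorem kill_exp (hK : Spor.IsoB K) (h : Emb 5 L z) (he : ∀ x : ↥L, x ^ (5 * 5) = 1 → x ^ 5 = 1) : False := by
  have : Fact (Nat.Prime 5) := ⟨Nat.prime_five⟩
  obtain ⟨y, hy⟩ := exists_y hK
  obtain ⟨x, hx⟩ := ExpP.exists_order (index_b hK h) hy
  have h1 := he x (by
    have h2 : x ^ 5 ^ 2 = 1 := by rw [← hx, pow_orderOf_eq_one]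
    rwa [show (5 ^ 2 : ℕ) = 5 * 5 from rfl] at h2)
  have h2 := orderOf_dvd_of_pow_eq_one h1
  rw [hx] at h2
  revert h2
  norm_num

/-- `PSL_n(q)` -/
theorem psl (hK : Spor.IsoB K) (h : Emb 5 L z) {n q d : ℕ} (hn : n ≤ 5) (hq : q = 5 ^ d) (hL : Real (.psl n q) ↥L) :
    False := by
  have : Fact (Nat.Prime 5) := ⟨Nat.prime_five⟩
  obtain ⟨F, i1, i2, hF, ⟨e⟩⟩ := hL
  have hch : CharP F 5 := H382.FieldAction.charP_of_card F (d := d) (by rw [Nat.card_eq_fintype_card, hF, hq])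
  refine kill_exp hK h fun x hx => ?_
  have h1 := ExpP.pow_of_quot (p := 5) hn (G := Matrix.SpecialLinearGroup (Fin n) F)
    (X := Matrix.ProjectiveSpecialLinearGroup (Fin n) F)
    ⟨⟨fun g => g.1, rfl⟩, fun _ _ => rfl⟩ (fun a b hab => Subtype.ext hab)
    (QuotientGroup.mk' _) (QuotientGroup.mk'_surjective _) (x := e x) (by rw [← map_pow, hx, map_one])
  apply e.injective
  rw [map_pow, h1, map_one]

/-- `PSU_n(q)` -/
theorem psu (hK : Spor.IsoB K) (h : Emb 5 L z) {n q d : ℕ} (hn : n ≤ 5) (hq : q ^ 2 = 5 ^ d) (hL : Real (.psu n q) ↥L) :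
    False := by
  have : Fact (Nat.Prime 5) := ⟨Nat.prime_five⟩
  obtain ⟨F, i1, i2, hF, ⟨e⟩⟩ := hL
  have hch : CharP F 5 := H382.FieldAction.charP_of_card F (d := d) (by rw [Nat.card_eq_fintype_card, hF, hq])
  refine kill_exp hK h fun x hx => ?_
  have h1 := ExpP.pow_of_quot (p := 5) hn (G := ↥(SU n F q)) (X := PSU n F q)
    ⟨⟨fun g => g.1.1, rfl⟩, fun _ _ => rfl⟩ (fun a b hab => Subtype.ext (Subtype.ext hab))
    (QuotientGroup.mk' _) (QuotientGroup.mk'_surjective _) (x := e x) (by rw [← map_pow, hx, map_one])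
  apply e.injective
  rw [map_pow, h1, map_one]

end Cfsg.Agent.H237.KillBExp
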